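import Mathlib
import Cfsg.Prelude.Def_Solvable
import Cfsg.Agent.PCore.Basic
import Cfsg.Agent.PCore.PConstrained
import Cfsg.Agent.Hall.Pi
import Cfsg.Agent.SolvTwoCore.Basic
import Cfsg.Agent.Transfer.Residual
import Cfsg.Agent.Fusion.QdInvolve
import Cfsg.Agent.PLocalBasics.SL2Section

/-!
Groups all of whose `p'`-subgroups are abelian of exponent dividing `p - 1`: first properties.
-/

set_option autoImplicit false
set_option linter.style.haveILetI false

namespace CfsgLib.AbelianHall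

universe u

open scoped Pointwise

/-- Every subgroup of order prime to `p` is abelian of exponent dividing `p - 1`. -/
def Hyp (p : ℕ) (G : Type*) [Group G] : Prop :=
  ∀ H : Subgroup G, (Nat.card ↥H).Coprime p → IsMulCommutative ↥H ∧ ∀ x ∈ H, x ^ (p - 1) = 1

/-- There is a normal `p'`-subgroup and, above it, a normal subgroup with `p`-group factor containing
all `p`-elements. -/
def Good (p : ℕ) (G : Type*) [Group G] : Prop :=
  ∃ O K : Subgroup G, O.Normal ∧ K.Normal ∧ (Nat.card O).Coprime p ∧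
    (∀ x ∈ K, ∃ k : ℕ, x ^ p ^ k ∈ O) ∧ ∀ (x : G) (k : ℕ), x ^ p ^ k = 1 → x ∈ K

variable {G : Type*} [Group G] {p : ℕ}

theorem mem_of_pow_mem {O : Subgroup G} {x : G} {k : ℕ} (hx : (orderOf x).Coprime p)
    (h : x ^ p ^ k ∈ O) : x ∈ O := by
  obtain ⟨m, hm⟩ := exists_pow_eq_self_of_coprime (x := x) ((hx.pow_right k).symm)
  rw [← hm]
  exact O.pow_mem h m

theorem card_zpowers_coprime {x : G} (hx : (orderOf x).Coprime p) :
    (Nat.card (Subgroup.zpowers x)).Coprime p := by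
  rwa [Nat.card_zpowers]

theorem orderOf_coprime_of_mem {H : Subgroup G} (hH : (Nat.card H).Coprime p) {x : G} (hx : x ∈ H) :
    (orderOf x).Coprime p :=
  Nat.Coprime.coprime_dvd_left (H.orderOf_dvd_natCard hx) hH

theorem Hyp.comm (h : Hyp p G) {H : Subgroup G} (hH : (Nat.card H).Coprime p) {x y : G}
    (hx : x ∈ H) (hy : y ∈ H) : x * y = y * x := by
  haveI := (h H hH).1
  exact congrArg Subtype.val (mul_comm' (⟨x, hx⟩ : H) ⟨y, hy⟩)

theorem Hyp.of_injective {H : Type*} [Group H] (f : H →* G) (hf : Function.Injective f)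
    (h : Hyp p G) : Hyp p H := by
  intro K hK
  have hc : (Nat.card (K.map f)).Coprime p := by
    rwa [Subgroup.card_map_of_injective hf]
  refine ⟨⟨⟨fun a b => Subtype.ext (hf ?_)⟩⟩, fun x hx => hf ?_⟩
  · simpa using h.comm hc (Subgroup.mem_map_of_mem f a.2) (Subgroup.mem_map_of_mem f b.2)
  · rw [map_pow, map_one]
    exact (h _ hc).2 _ (Subgroup.mem_map_of_mem f hx)

theorem Hyp.subgroup (h : Hyp p G) (H : Subgroup G) : Hyp p H :=
  h.of_injective H.subtype H.subtype_injective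

variable [Finite G] [hp : Fact p.Prime]

omit [Finite G] in
theorem coprime_of_isPGroup {q : ℕ} [Fact q.Prime] (hqp : q ≠ p) {H : Subgroup G} [Finite H]
    (hH : IsPGroup q H) : (Nat.card H).Coprime p := by
  obtain ⟨n, hn⟩ := IsPGroup.iff_card.1 hH
  rw [hn]
  exact ((Nat.coprime_primes (Fact.out (p := q.Prime)) hp.out).2 hqp).pow_left n

/-- The hypothesis passes to the quotient by a normal `p`-subgroup or `p'`-subgroup. -/
theorem Hyp.quotient (h : Hyp p G) (N : Subgroup G) [N.Normal]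
    (hN : IsPGroup p N ∨ (Nat.card N).Coprime p) : Hyp p (G ⧸ N) := by
  intro X hX
  set π := QuotientGroup.mk' N
  set Y := X.comap π with hY
  have hcard := PCore.card_comap_mk' N X
  have key : ∃ C : Subgroup G, (Nat.card C).Coprime p ∧ ∀ z ∈ X, ∃ c ∈ C, π c = z := by
    rcases hN with hN | hN
    · have hNY : N ≤ Y := fun n hn => Subgroup.mem_comap.2 (by
        rw [show π n = 1 from (QuotientGroup.eq_one_iff n).2 hn]; exact X.one_mem)
      obtain ⟨k, hk⟩ := IsPGroup.iff_card.1 hN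
      have hNY' : Nat.card (N.subgroupOf Y) = Nat.card N :=
        Nat.card_congr (Subgroup.subgroupOfEquivOfLe hNY).toEquiv
      have hidx : (N.subgroupOf Y).index = Nat.card X := by
        apply Nat.eq_of_mul_eq_mul_left (Nat.card_pos (α := N.subgroupOf Y))
        rw [Subgroup.card_mul_index, hNY', hcard]
      obtain ⟨C, hC⟩ := Subgroup.exists_right_complement'_of_coprime (N := N.subgroupOf Y)
        (by rw [hNY', hk, hidx]; exact hX.symm.pow_left k)
      refine ⟨C.map Y.subtype, ?_, fun z hz => ?_⟩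
      · rw [Subgroup.card_map_of_injective Y.subtype_injective,
          show Nat.card C = Nat.card X from hidx ▸ (hC.symm.index_eq_card).symm]
        exact hX
      · obtain ⟨g, rfl⟩ := QuotientGroup.mk'_surjective N z
        obtain ⟨⟨n, c⟩, hnc⟩ := hC.2 (⟨g, hz⟩ : Y)
        refine ⟨_, Subgroup.mem_map_of_mem _ c.2, ?_⟩
        have h1 : ((n : Y) : G) * ((c : Y) : G) = g := congrArg Subtype.val hnc
        rw [← h1, map_mul, show π ((n : Y) : G) = 1 from (QuotientGroup.eq_one_iff _).2 n.2, one_mul]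
        rfl
    · refine ⟨Y, ?_, fun z hz => ?_⟩
      · rw [hY, hcard]; exact hN.mul_left hX
      · obtain ⟨g, rfl⟩ := QuotientGroup.mk'_surjective N z
        exact ⟨g, hz, rfl⟩
  obtain ⟨C, hC, hsur⟩ := key
  refine ⟨⟨⟨fun a b => Subtype.ext ?_⟩⟩, fun z hz => ?_⟩
  · obtain ⟨a', ha', ea⟩ := hsur _ a.2
    obtain ⟨b', hb', eb⟩ := hsur _ b.2
    show (a : G ⧸ N) * b = b * a
    rw [← ea, ← eb, ← map_mul, ← map_mul, h.comm hC ha' hb']
  · obtain ⟨c, hc, rfl⟩ := hsur _ hz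
    rw [← map_pow, (h C hC).2 c hc, map_one]

theorem Hyp.not_involves_sl2 (h : Hyp p G) (hp2 : p ≠ 2) :
    ¬ Cfsg.Involves (Matrix.SpecialLinearGroup (Fin 2) (ZMod p)) G := fun hi => by
  obtain ⟨T⟩ : Nonempty (Sylow 2 G) := inferInstance
  exact PLocalBasics.not_comm_of_involves hp2 hi T
    (h _ (coprime_of_isPGroup (Ne.symm hp2) T.isPGroup')).1

theorem Hyp.not_involves_qd (h : Hyp p G) (hp2 : p ≠ 2) : ¬ Cfsg.Involves ↥(Cfsg.qd p) G := fun hi => by
  obtain ⟨L, f, hf⟩ := ZJ.exists_hom_of_involves hi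
  exact h.not_involves_sl2 hp2
    (ZJ.involves_of_hom L ((QdRank.blockHom p).comp f) (QdRank.blockHom_surjective.comp hf))

/-- With trivial `p`-core, all `p'`-elements of a solvable group lie in the `p'`-core. -/
theorem Hyp.mem_pPrimeCore {G : Type u} [Group G] [Finite G] [Group.IsSolvable G] (h : Hyp p G)
    (h0 : Cfsg.pCore p G = ⊥) {x : G} (hx : (orderOf x).Coprime p) : x ∈ Cfsg.pPrimeCore p G := by
  set π : Set ℕ := {q | q ≠ p} with hπ
  have hc : Cfsg.piCore πᶜ G = ⊥ := by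
    rw [eq_bot_iff, ← h0]
    refine PCore.le_pCore (Cfsg.piCore_normal _ _) ?_
    refine IsPGroup.of_card (Nat.eq_prime_pow_of_unique_prime_dvd Nat.card_pos.ne' fun {d} hd hdvd => ?_)
    by_contra hne
    exact Hall.isPiSubgroup_piCore d hd hdvd hne
  have hle : Cfsg.piCore π G ≤ Cfsg.pPrimeCore p G := by
    refine PCore.le_pPrimeCore (Cfsg.piCore_normal _ _) ?_
    exact Nat.coprime_of_dvd fun d hd h1 h2 => Hall.isPiSubgroup_piCore d hd h1
      ((Nat.prime_dvd_prime_iff_eq hd hp.out).1 h2)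
  refine hle (Hall.centralizer_piCore_le hc (Subgroup.mem_centralizer_iff.2 fun f hf => ?_))
  have hspec := SolvTwoCore.pPrimeCore_spec (G := G) p
  haveI := hspec.1
  exact h.comm (SolvTwoCore.coprime_sup hspec.2 (card_zpowers_coprime hx))
    (Subgroup.mem_sup_right (hle hf)) (Subgroup.mem_sup_left (Subgroup.mem_zpowers x))

/-! ### `Good` -/

omit [Finite G] hp in
theorem Good.of_injective {H : Type*} [Group H] [Finite G] (f : H →* G) (hf : Function.Injective f)
    (h : Good p G) : Good p H := by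
  obtain ⟨O, K, hO, hK, hc, hp', hel⟩ := h
  refine ⟨O.comap f, K.comap f, hO.comap f, hK.comap f,
    Nat.Coprime.coprime_dvd_left (Subgroup.card_comap_dvd_of_injective O f hf) hc, fun x hx => ?_,
    fun x k hx => ?_⟩
  · obtain ⟨k, hk⟩ := hp' _ hx
    exact ⟨k, by rw [Subgroup.mem_comap, map_pow]; exact hk⟩
  · exact hel _ k (by rw [← map_pow, hx, map_one])

theorem Good.of_surjective {H : Type*} [Group H] [Finite H] (f : G →* H) (hf : Function.Surjective f)
    (h : Good p G) : Good p H := by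
  obtain ⟨O, K, hO, hK, hc, hp', hel⟩ := h
  refine ⟨O.map f, K.map f, hO.map f hf, hK.map f hf,
    Nat.Coprime.coprime_dvd_left (O.card_map_dvd f) hc, ?_, fun x k hx => ?_⟩
  · rintro _ ⟨x, hx, rfl⟩
    obtain ⟨k, hk⟩ := hp' x hx
    exact ⟨k, x ^ p ^ k, hk, map_pow f x _⟩
  · obtain ⟨y, rfl⟩ := hf x
    obtain ⟨a, b, rfl, hab, ⟨j, hj⟩, hb, -, -⟩ := Transfer.exists_pPart_mul (p := p) y
    have hfb : f b ^ p ^ max k j = 1 := by
      have h1 : f (a * b) ^ p ^ max k j = 1 := by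
        obtain ⟨c, hc⟩ := pow_dvd_pow p (le_max_left k j)
        rw [hc, pow_mul, hx, one_pow]
      have h2 : a ^ p ^ max k j = 1 :=
        orderOf_dvd_iff_pow_eq_one.1 (hj ▸ pow_dvd_pow p (le_max_right k j))
      rwa [map_mul, (hab.map f).mul_pow, ← map_pow, h2, map_one, one_mul] at h1
    have : f b = 1 := Subgroup.mem_bot.1 (mem_of_pow_mem (k := max k j)
      (Nat.Coprime.coprime_dvd_left (orderOf_map_dvd f b) hb) (by rw [hfb]; exact Subgroup.one_mem _))
    refine ⟨a, hel a j (by rw [← hj]; exact pow_orderOf_eq_one a), ?_⟩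
    rw [map_mul, this, mul_one]

/-- Lifting through a normal `p'`-subgroup. -/
theorem Good.of_quotient (N : Subgroup G) [N.Normal] (hN : (Nat.card N).Coprime p)
    (h : Good p (G ⧸ N)) : Good p G := by
  obtain ⟨O, K, hO, hK, hc, hp', hel⟩ := h
  refine ⟨O.comap (QuotientGroup.mk' N), K.comap (QuotientGroup.mk' N), hO.comap _, hK.comap _, ?_,
    fun x hx => ?_, fun x k hx => ?_⟩
  · rw [PCore.card_comap_mk']; exact hN.mul_left hc
  · obtain ⟨k, hk⟩ := hp' _ hx
    exact ⟨k, by rw [Subgroup.mem_comap, map_pow]; exact hk⟩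
  · exact hel _ k (by rw [← map_pow, hx, map_one])

omit [Finite G] in
theorem good_of_not_dvd [Finite G] (h : ¬ p ∣ Nat.card G) : Good p G :=
  ⟨⊤, ⊤, inferInstance, inferInstance, by
    rw [Subgroup.card_top]; exact (hp.out.coprime_iff_not_dvd.2 h).symm,
    fun _ _ => ⟨0, Subgroup.mem_top _⟩, fun _ _ _ => Subgroup.mem_top _⟩

/-- A solvable group without nontrivial `p`-factor group. -/
theorem Hyp.good_of_no_pFactor {G : Type u} [Group G] [Finite G] [Group.IsSolvable G] (h : Hyp p G)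
    (hres : ∀ N : Subgroup G, ∀ [N.Normal], IsPGroup p (G ⧸ N) → N = ⊤) : Good p G := by
  have hspec := SolvTwoCore.pPrimeCore_spec (G := G) p
  haveI := hspec.1
  set O := Cfsg.pPrimeCore p G with hO
  have h1 : Hyp p (G ⧸ O) := h.quotient O (Or.inr hspec.2)
  haveI : (Cfsg.pCore p (G ⧸ O)).Normal := Cfsg.pCore_normal p _
  set P1 := Cfsg.pCore p (G ⧸ O) with hP1
  have h2 : Hyp p ((G ⧸ O) ⧸ P1) := h1.quotient P1 (Or.inl (PCore.isPGroup_pCore p _))
  set π : G →* (G ⧸ O) ⧸ P1 := (QuotientGroup.mk' P1).comp (QuotientGroup.mk' O) with hπ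
  have hπs : Function.Surjective π :=
    (QuotientGroup.mk'_surjective P1).comp (QuotientGroup.mk'_surjective O)
  have hspec2 := SolvTwoCore.pPrimeCore_spec (G := (G ⧸ O) ⧸ P1) p
  set F := Cfsg.pPrimeCore p ((G ⧸ O) ⧸ P1) with hF
  haveI := hspec2.1
  have hq : IsPGroup p (G ⧸ F.comap π) := by
    intro z
    obtain ⟨g, rfl⟩ := QuotientGroup.mk'_surjective (F.comap π) z
    obtain ⟨a, b, rfl, hab, ⟨j, hj⟩, hb, -, -⟩ := Transfer.exists_pPart_mul (p := p) g
    refine ⟨j, ?_⟩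
    rw [← map_pow, QuotientGroup.mk'_apply, QuotientGroup.eq_one_iff, hab.mul_pow, ← hj,
      pow_orderOf_eq_one, one_mul]
    refine Subgroup.pow_mem _ (Subgroup.mem_comap.2 ?_) _
    exact h2.mem_pPrimeCore PCore.pCore_quotient (Nat.Coprime.coprime_dvd_left (orderOf_map_dvd π b) hb)
  have hFtop := hres _ hq
  refine ⟨O, P1.comap (QuotientGroup.mk' O), inferInstance, inferInstance, hspec.2, fun x hx => ?_,
    fun x k hx => ?_⟩
  · obtain ⟨k, hk⟩ := PCore.isPGroup_pCore p (G ⧸ O) ⟨_, hx⟩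
    refine ⟨k, (QuotientGroup.eq_one_iff _).1 ?_⟩
    have := congrArg Subtype.val hk
    simpa using this
  · rw [Subgroup.mem_comap, ← QuotientGroup.eq_one_iff]
    have hxF : π x ∈ F := Subgroup.mem_comap.1 (hFtop ▸ Subgroup.mem_top x)
    have hc : (orderOf (π x)).Coprime p := orderOf_coprime_of_mem hspec2.2 hxF
    have hπx : π x ^ p ^ k = 1 := by rw [← map_pow, hx, map_one]
    exact Subgroup.mem_bot.1 (mem_of_pow_mem (O := ⊥) hc (k := k) (Subgroup.mem_bot.2 hπx))

/-- Two `p`-subgroups can be moved into one by an element of the `p'`-part. -/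
theorem Good.exists_conj {O K : Subgroup G} [O.Normal] [K.Normal] (hc : (Nat.card O).Coprime p)
    (hp' : ∀ x ∈ K, ∃ k : ℕ, x ^ p ^ k ∈ O) (hel : ∀ (x : G) (k : ℕ), x ^ p ^ k = 1 → x ∈ K)
    {X₁ X₂ : Subgroup G} (h₁ : IsPGroup p X₁) (h₂ : IsPGroup p X₂) :
    ∃ o ∈ O, IsPGroup p ↥(X₁ ⊔ MulAut.conj o • X₂) := by
  have hle : ∀ X : Subgroup G, IsPGroup p X → X ≤ K := fun X hX x hx => by
    obtain ⟨k, hk⟩ := hX ⟨x, hx⟩
    exact hel x k (by simpa using congrArg Subtype.val hk)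
  obtain ⟨Q, hQ⟩ := (h₁.comap_subtype : IsPGroup p (X₁.subgroupOf K)).exists_le_sylow
  obtain ⟨Q₂, hQ₂⟩ := (h₂.comap_subtype : IsPGroup p (X₂.subgroupOf K)).exists_le_sylow
  obtain ⟨g, hg⟩ := MulAction.exists_smul_eq K Q₂ Q
  set N := O.subgroupOf K
  have hquot : IsPGroup p (K ⧸ N) := by
    intro z
    obtain ⟨y, rfl⟩ := QuotientGroup.mk'_surjective N z
    obtain ⟨k, hk⟩ := hp' y y.2
    exact ⟨k, by rw [← map_pow, QuotientGroup.mk'_apply, QuotientGroup.eq_one_iff]; exact hk⟩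
  set Qb := Q.mapSurjective (QuotientGroup.mk'_surjective N)
  have htop : (Qb : Subgroup (K ⧸ N)) = ⊤ := (Qb.3 (hquot.to_subgroup ⊤) le_top).symm
  obtain ⟨q, hq, hqg⟩ := htop.ge (Subgroup.mem_top (QuotientGroup.mk' N g))
  -- `g = q * o`
  have ho : q⁻¹ * g ∈ N := by
    rw [← QuotientGroup.eq_one_iff, QuotientGroup.mk_mul, QuotientGroup.mk_inv]
    exact inv_mul_eq_one.2 hqg
  refine ⟨((q⁻¹ * g : K) : G), ho, ((Q.isPGroup'.map K.subtype).to_le (sup_le ?_ ?_))⟩
  · intro x hx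
    exact ⟨⟨x, hle _ h₁ hx⟩, hQ hx, rfl⟩
  · rintro _ ⟨x, hx, rfl⟩
    have hxQ : (⟨x, hle _ h₂ hx⟩ : K) ∈ (Q₂ : Subgroup K) := hQ₂ hx
    have hgx : g * ⟨x, hle _ h₂ hx⟩ * g⁻¹ ∈ (Q : Subgroup K) := by
      rw [← hg, Sylow.coe_subgroup_smul]
      exact ⟨_, hxQ, rfl⟩
    refine ⟨q⁻¹ * (g * ⟨x, hle _ h₂ hx⟩ * g⁻¹) * q, Subgroup.mul_mem _ (Subgroup.mul_mem _
      (Subgroup.inv_mem _ hq) hgx) hq, ?_⟩
    simp [MulAut.conj_apply, MulAut.smul_def, mul_assoc]

end CfsgLib.AbelianHall
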