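import Mathlib
import Cfsg.Agent.AbelianHall.Basic
import Cfsg.Agent.Signalizer.Grow
import Cfsg.Agent.Signalizer.MinSimple
import Cfsg.Agent.QdFree.GroupControl
import Cfsg.Agent.ZJ.Glauberman
import Cfsg.Agent.Transfer.AbelianSylow
import Cfsg.Agent.Transfer.Frobenius
import Cfsg.Agent.CoprimeAction.Hyperplane

/-!
No nonabelian simple group has all its `p'`-subgroups abelian of exponent dividing `p - 1`
and all proper subgroups solvable.
-/

set_option autoImplicit false
set_option linter.style.haveILetI false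
set_option linter.unusedSectionVars false

namespace CfsgLib.AbelianHall

universe u

open scoped Pointwise commutatorElement

variable {G : Type u} [Group G] [Finite G] {p : ℕ} [hp : Fact p.Prime]

/-- A minimal counterexample. -/
structure Ctx (p : ℕ) (G : Type u) [Group G] [Finite G] : Prop where
  hyp : Hyp p G
  five : 5 ≤ p
  simple : IsSimpleGroup G
  nc : ¬ IsMulCommutative G
  solv : ∀ H : Subgroup G, H ≠ ⊤ → Group.IsSolvable H

theorem coprime_sup_of_le_normalizer {N M : Subgroup G} (hM : M ≤ Subgroup.normalizer (N : Set G))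
    (h1 : (Nat.card N).Coprime p) (h2 : (Nat.card M).Coprime p) : (Nat.card ↥(M ⊔ N)).Coprime p := by
  set L := Subgroup.normalizer (N : Set G)
  haveI : (N.subgroupOf L).Normal := Subgroup.normal_in_normalizer
  have h := SolvTwoCore.coprime_sup (N := N.subgroupOf L) (M := M.subgroupOf L) (p := p)
    (by rwa [Nat.card_congr (Subgroup.subgroupOfEquivOfLe Subgroup.le_normalizer).toEquiv])
    (by rwa [Nat.card_congr (Subgroup.subgroupOfEquivOfLe hM).toEquiv])
  rwa [← Subgroup.subgroupOf_sup hM Subgroup.le_normalizer,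
    Nat.card_congr (Subgroup.subgroupOfEquivOfLe (sup_le hM Subgroup.le_normalizer)).toEquiv] at h

/-- A `p'`-element normalising a `p'`-subgroup centralises it. -/
theorem Hyp.centralizes (h : Hyp p G) {R : Subgroup G} (hR : (Nat.card R).Coprime p) {n : G}
    (hn : n ∈ Subgroup.normalizer (R : Set G)) (ho : (orderOf n).Coprime p) :
    n ∈ Subgroup.centralizer (R : Set G) :=
  Subgroup.mem_centralizer_iff.2 fun s hs =>
    h.comm (coprime_sup_of_le_normalizer (Subgroup.zpowers_le.2 hn) hR (card_zpowers_coprime ho))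
      (Subgroup.mem_sup_right hs) (Subgroup.mem_sup_left (Subgroup.mem_zpowers n))

theorem Ctx.commutator_eq_top (c : Ctx p G) : commutator G = ⊤ := by
  refine (c.simple.eq_bot_or_eq_top_of_normal (commutator G) inferInstance).resolve_left fun h => c.nc ?_
  refine ⟨⟨fun a b => commutatorElement_eq_one_iff_mul_comm.1 (Subgroup.mem_bot.1 (h ▸ ?_))⟩⟩
  exact Subgroup.commutator_mem_commutator (Subgroup.mem_top a) (Subgroup.mem_top b)

theorem Ctx.ne_top_of_isPGroup (c : Ctx p G) {q : ℕ} [Fact q.Prime] {D : Subgroup G}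
    (hD : IsPGroup q D) : D ≠ ⊤ := by
  intro h
  haveI := (hD.of_equiv ((MulEquiv.subgroupCongr h).trans Subgroup.topEquiv)).isNilpotent
  haveI : Group.IsSolvable G := inferInstance
  rcases subsingleton_or_nontrivial G with hs | hs
  · exact c.nc ⟨⟨fun a b => Subsingleton.elim _ _⟩⟩
  · exact (Group.IsSolvable.commutator_lt_top_of_nontrivial G).ne c.commutator_eq_top

theorem Ctx.normalizer_ne_top (c : Ctx p G) {q : ℕ} [Fact q.Prime] {D : Subgroup G} (hD : IsPGroup q D)
    (h1 : D ≠ ⊥) : Subgroup.normalizer (D : Set G) ≠ ⊤ :=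
  Signalizer.normalizer_ne_top c.simple h1 (c.ne_top_of_isPGroup hD)

theorem W_map_conj {el : Bool} {P₀ : Subgroup G} :
    Subgroup.normalizer (P₀ : Set G) ≤ Subgroup.normalizer (ZJ.W p el P₀ : Set G) := by
  intro n hn
  rw [Subgroup.mem_normalizer_iff_map_conj_eq] at hn ⊢
  have h := ZJ.W_map (p := p) (el := el) (MulAut.conj n).toMonoidHom (S := P₀)
    (fun x _ hx => (MulAut.conj n).injective (hx.trans (map_one (MulAut.conj n)).symm))
  exact h.symm.trans (congrArg _ hn)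

/-! ### `p`-length one -/

theorem Ctx.good_ZJ (c : Ctx p G) (P : Sylow p G) (hP : (P : Subgroup G) ≠ ⊥) :
    Good p ↥(Subgroup.normalizer (ZJ.W p false (P : Subgroup G) : Set G)) := by
  set L := Subgroup.normalizer (ZJ.W p false (P : Subgroup G) : Set G) with hL
  have hW : IsPGroup p (ZJ.W p false (P : Subgroup G)) := P.2.to_le (ZJ.W_le _)
  haveI := c.solv L (c.normalizer_ne_top hW (ZJ.W_ne_bot P.2 hP))
  have hp2 : p ≠ 2 := by have := c.five; omega
  have hPL : (P : Subgroup G) ≤ L := Subgroup.le_normalizer.trans W_map_conj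
  refine (c.hyp.subgroup L).good_of_no_pFactor fun N _ hN => ?_
  have hfoc : (P : Subgroup G) ≤ ⁅(P : Subgroup G), L⁆ := by
    refine le_trans ?_ (Transfer.focalSubgroup_le_commutator_of_control (H := (P : Subgroup G)) (X := L)
      fun x hx g hg => ?_)
    · rw [← Transfer.inf_commutator_eq_focal, c.commutator_eq_top, inf_top_eq]
    · obtain ⟨-, hcon⟩ := QdFree.controlsStrongFusionOf_W_of_qdFree (el := false) hp2 P
        (c.hyp.not_involves_qd hp2) (D := (P : Subgroup G)) ⟨le_rfl, fun _ _ _ h => h⟩ {x}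
        (Set.singleton_subset_iff.2 hx)
      obtain ⟨y, hy, he⟩ := hcon g (by rintro _ ⟨a, rfl, rfl⟩; exact hg)
      exact ⟨y, hy, (he x rfl).symm⟩
  set PL := P.subtype hPL
  have hle : (PL : Subgroup L) ≤ commutator L := by
    intro x hx
    have h1 : (x : G) ∈ (⊤ : Subgroup L).map L.subtype ⊓ ⁅L, L⁆ :=
      ⟨⟨x, Subgroup.mem_top _, rfl⟩, Subgroup.commutator_mono hPL le_rfl (hfoc hx)⟩
    obtain ⟨y, hy, hyx⟩ : (x : G) ∈ (commutator L).map L.subtype := by
      rw [Subgroup.map_subtype_commutator]; exact h1.2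
    rwa [← L.subtype_injective hyx]
  by_contra hne
  haveI := hN.isNilpotent
  haveI : Nontrivial (L ⧸ N) := by
    rw [← Finite.one_lt_card_iff_nontrivial, ← Subgroup.index_eq_card]
    exact Subgroup.one_lt_index_of_ne_top hne
  refine (Group.IsSolvable.commutator_lt_top_of_nontrivial (L ⧸ N)).ne (eq_top_iff.2 ?_)
  have htop : ((PL.mapSurjective (QuotientGroup.mk'_surjective N) : Sylow p (L ⧸ N)) : Subgroup (L ⧸ N)) = ⊤ :=
    ((PL.mapSurjective (QuotientGroup.mk'_surjective N)).3 (hN.to_subgroup ⊤) le_top).symm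
  rw [Sylow.coe_mapSurjective] at htop
  rw [← htop]
  refine (Subgroup.map_mono hle).trans ?_
  simp only [commutator_def, Subgroup.map_commutator]
  exact Subgroup.commutator_mono le_top le_top

/-- Every proper subgroup has `p`-length at most one. -/
theorem Ctx.good (c : Ctx p G) {H : Subgroup G} (hH : H ≠ ⊤) : Good p ↥H := by
  classical
  by_contra hbad
  obtain ⟨H, ⟨hH, hbad⟩, hmax⟩ := Set.exists_max_image {H : Subgroup G | H ≠ ⊤ ∧ ¬ Good p ↥H}
    (fun H => (Nat.card H).factorization p) (Set.toFinite _) ⟨H, hH, hbad⟩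
  have hp2 : p ≠ 2 := by have := c.five; omega
  haveI := c.solv H hH
  obtain ⟨PH⟩ : Nonempty (Sylow p ↥H) := inferInstance
  set P₀ := (PH : Subgroup ↥H).map H.subtype with hP₀
  have hP₀p : IsPGroup p P₀ := PH.2.map _
  have hP₀card : Nat.card P₀ = p ^ (Nat.card H).factorization p := by
    rw [hP₀, Subgroup.card_map_of_injective H.subtype_injective, PH.card_eq_multiplicity]
  have hne : P₀ ≠ ⊥ := fun h => hbad <| good_of_not_dvd <| fun hd => by
    rw [h, Subgroup.card_bot] at hP₀card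
    exact (hp.out.factorization_pos_of_dvd Nat.card_pos.ne' hd).ne'
      ((Nat.pow_eq_one.1 hP₀card.symm).resolve_left hp.out.ne_one)
  set W₀ := ZJ.W p false P₀ with hW₀
  have hW₀p : IsPGroup p W₀ := hP₀p.to_le (ZJ.W_le _)
  set H' := Subgroup.normalizer (W₀ : Set G) with hH'
  have hH'top : H' ≠ ⊤ := c.normalizer_ne_top hW₀p (ZJ.W_ne_bot hP₀p hne)
  have hHh : Hyp p ↥H := c.hyp.subgroup H
  have hbad' : ¬ Good p ↥H' := fun hg => hbad <| by
    have hspec := SolvTwoCore.pPrimeCore_spec (G := ↥H) p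
    haveI := hspec.1
    set O := Cfsg.pPrimeCore p ↥H
    have hh := hHh.quotient O (Or.inr hspec.2)
    have hn := ZJ.W_normal_sylow (el := false) hp2
      (PCore.isPConstrained_iff.1 PCore.isPConstrained_of_isSolvable)
      (fun B _ hB => ZJ.isPStableOn_of_isNormalizerPStable
        (QdFree.isNormalizerPStable_of_sl2Free hp2 (hh.not_involves_sl2 hp2)) B hB)
      (PH.mapSurjective (QuotientGroup.mk'_surjective O))
    rw [Sylow.coe_mapSurjective, ZJ.W_map (QuotientGroup.mk' O) (fun x hx h1 => Subgroup.mem_bot.1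
      ((PCore.inf_eq_bot_of_isPGroup_of_coprime PH.2 hspec.2) ▸
        (⟨hx, (QuotientGroup.eq_one_iff x).1 h1⟩ : x ∈ (PH : Subgroup ↥H) ⊓ O))),
      ← Subgroup.normalizer_eq_top_iff,
      PCore.normalizer_map_eq O hspec.2 _ (PH.2.to_le (ZJ.W_le _))] at hn
    set NH := Subgroup.normalizer (ZJ.W p false (PH : Subgroup ↥H) : Set ↥H)
    have hNH : NH ≤ H'.comap H.subtype := by
      intro x hx
      rw [Subgroup.mem_comap, hH', hW₀, hP₀, ZJ.W_map H.subtype
        (fun y _ hy => H.subtype_injective (hy.trans (map_one _).symm))]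
      exact Subgroup.le_normalizer_map _ (Subgroup.mem_map_of_mem _ hx)
    let f : NH →* H' := (H.subtype.comp NH.subtype).codRestrict H' fun x => hNH x.2
    have hf : Function.Injective f := fun x y h => Subtype.ext (Subtype.ext (congrArg (fun z : H' => (z : G)) h))
    refine Good.of_quotient O hspec.2 ((hg.of_injective f hf).of_surjective
      ((QuotientGroup.mk' O).comp NH.subtype) fun z => ?_)
    obtain ⟨x, hx, rfl⟩ := hn.ge (Subgroup.mem_top z)
    exact ⟨⟨x, hx⟩, rfl⟩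
  obtain ⟨P, hP⟩ := hP₀p.exists_le_sylow
  rcases hP.eq_or_lt with he | hlt
  · exact hbad' (by rw [hH', hW₀, he]; exact c.good_ZJ P (he ▸ hne))
  set T := Subgroup.normalizer (P₀ : Set G) ⊓ (P : Subgroup G) with hT
  have hTH : T ≤ H' := inf_le_left.trans W_map_conj
  have hPT : P₀ < T := Transfer.inf_normalizer_gt P hlt
  obtain ⟨k, hk⟩ := IsPGroup.iff_card.1 (P.2.to_le inf_le_right : IsPGroup p T)
  have h1 : (Nat.card H).factorization p < k := by
    refine (Nat.pow_lt_pow_iff_right hp.out.one_lt).1 ?_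
    rw [← hP₀card, ← hk]
    exact lt_of_le_of_ne (Subgroup.card_le_of_le hPT.le)
      fun e => hPT.ne (Subgroup.eq_of_le_of_card_ge hPT.le e.ge)
  have h2 : k ≤ (Nat.card H').factorization p :=
    (hp.out.pow_dvd_iff_le_factorization Nat.card_pos.ne').1 (hk ▸ Subgroup.card_dvd_of_le hTH)
  have h3 := hmax H' ⟨hH'top, hbad'⟩
  omega

/-! ### Sylow subgroups for the primes other than `p` -/

section Sylow

variable {r : ℕ} [hr : Fact r.Prime]

theorem Ctx.sylow_coprime (_c : Ctx p G) (hrp : r ≠ p) (R : Sylow r G) :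
    (Nat.card (R : Subgroup G)).Coprime p := coprime_of_isPGroup hrp R.2

theorem Ctx.sylow_comm (c : Ctx p G) (hrp : r ≠ p) (R : Sylow r G) : IsMulCommutative (R : Subgroup G) :=
  (c.hyp _ (c.sylow_coprime hrp R)).1

theorem Ctx.sylow_le_commutator (c : Ctx p G) (hrp : r ≠ p) (R : Sylow r G) :
    (R : Subgroup G) ≤ ⁅(R : Subgroup G), Subgroup.normalizer ((R : Subgroup G) : Set G)⁆ := by
  have h := Transfer.focalSubgroup_le_commutator_of_control (H := (R : Subgroup G))
    (X := Subgroup.normalizer ((R : Subgroup G) : Set G)) fun x hx g hg => by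
      haveI := c.sylow_comm hrp R
      obtain ⟨n, hn, he⟩ := R.conj_eq_normalizer_conj_of_mem x g⁻¹ hx (by simpa using hg : g⁻¹⁻¹ * x * g⁻¹ ∈ (R : Subgroup G))
      refine ⟨n⁻¹, (Subgroup.normalizer _).inv_mem hn, ?_⟩
      simpa using he.symm
  rwa [← Transfer.inf_commutator_eq_focal, c.commutator_eq_top, inf_top_eq] at h

theorem Ctx.fixed_eq_one (c : Ctx p G) (hrp : r ≠ p) (R : Sylow r G) {x : G}
    (hx : x ∈ (R : Subgroup G))
    (hfix : ∀ n ∈ Subgroup.normalizer ((R : Subgroup G) : Set G), n * x * n⁻¹ = x) : x = 1 := by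
  have h := (Transfer.abelian_decomp R (c.sylow_comm hrp R)).1
  rw [← Subgroup.mem_bot, ← h]
  exact ⟨⟨hx, Subgroup.mem_centralizer_iff.2 fun n hn => by
    have := hfix n hn
    calc n * x = n * x * n⁻¹ * n := by group
      _ = x * n := by rw [this]⟩, c.sylow_le_commutator hrp R hx⟩

/-- An invariant subgroup of a Sylow subgroup has order congruent to `1` modulo `p`. -/
theorem Ctx.card_modEq_one (c : Ctx p G) (hrp : r ≠ p) (R : Sylow r G) {X : Subgroup G}
    (hX : X ≤ (R : Subgroup G))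
    (hN : Subgroup.normalizer ((R : Subgroup G) : Set G) ≤ Subgroup.normalizer (X : Set G)) :
    Nat.card X ≡ 1 [MOD p] := by
  classical
  set N := Subgroup.normalizer ((R : Subgroup G) : Set G)
  set φ : N →* MulAut X := X.normalizerMonoidHom.comp (Subgroup.inclusion hN) with hφ
  have hφc : ∀ (n : N) (x : X), ((φ n x : X) : G) = (n : G) * x * (n : G)⁻¹ := fun n x => rfl
  have hrange : IsPGroup p φ.range := by
    rintro ⟨_, n, rfl⟩
    obtain ⟨a, b, hab, hcom, ⟨j, hj⟩, hb, -, -⟩ := Transfer.exists_pPart_mul (p := p) n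
    refine ⟨j, Subtype.ext ?_⟩
    have hφb : φ b = 1 := MulEquiv.ext fun x => Subtype.ext <| by
      rw [hφc]
      have hbc := c.hyp.centralizes (c.sylow_coprime hrp R) b.2 (by rwa [Subgroup.orderOf_coe])
      show (b : G) * x * (b : G)⁻¹ = x
      rw [← Subgroup.mem_centralizer_iff.1 hbc x (hX x.2), mul_inv_cancel_right]
    show (φ n) ^ p ^ j = 1
    rw [hab, map_mul, hφb, mul_one, ← map_pow, ← hj, pow_orderOf_eq_one, map_one]
  have h := hrange.card_modEq_card_fixedPoints (α := X)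
  suffices h1 : Nat.card (MulAction.fixedPoints φ.range X) = 1 by rwa [h1] at h
  rw [Nat.card_eq_one_iff_unique]
  refine ⟨⟨fun a b => ?_⟩, ⟨⟨1, fun g => map_one (g : MulAut X)⟩⟩⟩
  have key : ∀ a : MulAction.fixedPoints φ.range X, ((a : X) : G) = 1 := fun a =>
    c.fixed_eq_one hrp R (hX (a : X).2) fun n hn => by
      have := congrArg (fun z : X => (z : G)) (a.2 ⟨φ ⟨n, hn⟩, ⟨n, hn⟩, rfl⟩)
      exact this
  exact Subtype.ext (Subtype.ext ((key a).trans (key b).symm))

theorem Ctx.exists_elementary (c : Ctx p G) (hrp : r ≠ p) (R : Sylow r G) (hne : (R : Subgroup G) ≠ ⊥) :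
    ∃ E : Subgroup G, E ≤ (R : Subgroup G) ∧ Cfsg.IsElementaryAbelian r E ∧ r ^ 3 ≤ Nat.card E := by
  haveI := c.sylow_comm hrp R
  have hcomm : ∀ x ∈ (R : Subgroup G), ∀ y ∈ (R : Subgroup G), x * y = y * x := fun x hx y hy =>
    congrArg Subtype.val (mul_comm' (⟨x, hx⟩ : (R : Subgroup G)) ⟨y, hy⟩)
  let E : Subgroup G :=
    { carrier := {x | x ∈ (R : Subgroup G) ∧ x ^ r = 1}
      one_mem' := ⟨Subgroup.one_mem _, one_pow r⟩
      mul_mem' := fun {x y} hx hy => ⟨(R : Subgroup G).mul_mem hx.1 hy.1, by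
        rw [(show Commute x y from hcomm x hx.1 y hy.1).mul_pow, hx.2, hy.2, one_mul]⟩
      inv_mem' := fun {x} hx => ⟨(R : Subgroup G).inv_mem hx.1, by rw [inv_pow, hx.2, inv_one]⟩ }
  have hEN : Subgroup.normalizer ((R : Subgroup G) : Set G) ≤ Subgroup.normalizer (E : Set G) := by
    intro n hn
    refine Subgroup.mem_normalizer_fintype fun x hx => ⟨(Subgroup.mem_normalizer_iff.1 hn x).1 hx.1, ?_⟩
    rw [conj_pow, hx.2, mul_one, mul_inv_cancel]
  have hmod := c.card_modEq_one hrp R (X := E) (fun x hx => hx.1) hEN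
  have hEab : Cfsg.IsElementaryAbelian r E :=
    ⟨⟨⟨fun a b => Subtype.ext (hcomm _ a.2.1 _ b.2.1)⟩⟩, fun x hx => hx.2⟩
  obtain ⟨e, he⟩ := IsPGroup.iff_card.1 (R.2.to_le (fun x hx => hx.1) : IsPGroup r E)
  have : Nontrivial (R : Subgroup G) := (Subgroup.nontrivial_iff_ne_bot _).2 hne
  obtain ⟨x, hx⟩ := exists_prime_orderOf_dvd_card' r
    (R.2.card_eq_or_dvd.resolve_left (fun h => (Finite.one_lt_card (α := (R : Subgroup G))).ne' h))
  have hxE : (x : G) ∈ E := ⟨x.2, orderOf_dvd_iff_pow_eq_one.1 (by rw [Subgroup.orderOf_coe, hx])⟩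
  have he0 : e ≠ 0 := by
    rintro rfl
    rw [pow_zero, Subgroup.card_eq_one] at he
    rw [he, Subgroup.mem_bot, OneMemClass.coe_eq_one] at hxE
    rw [hxE, orderOf_one] at hx
    exact hr.out.ne_one hx.symm
  refine ⟨E, fun x hx => hx.1, hEab, ?_⟩
  rw [he]
  refine Nat.pow_le_pow_right hr.out.pos ?_
  by_contra hlt
  have hrp' : r < p := by
    have h1 := (c.hyp _ (c.sylow_coprime hrp R)).2 (x : G) x.2
    rw [← orderOf_dvd_iff_pow_eq_one, Subgroup.orderOf_coe, hx] at h1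
    have := c.five
    have := Nat.le_of_dvd (by omega) h1
    omega
  have h5 := c.five
  have h2 := hr.out.two_le
  rw [he, Nat.ModEq.comm, Nat.modEq_iff_dvd' (Nat.one_le_pow _ _ hr.out.pos)] at hmod
  have he12 : e = 1 ∨ e = 2 := by omega
  rcases he12 with rfl | rfl
  · rw [pow_one] at hmod
    have := Nat.le_of_dvd (by omega) hmod
    omega
  · have hfac : r ^ 2 - 1 = (r + 1) * (r - 1) := by simpa using Nat.sq_sub_sq r 1
    rw [hfac] at hmod
    rcases hp.out.dvd_mul.1 hmod with h | h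
    · have := Nat.le_of_dvd (by omega) h
      have hr1 : r + 1 = p := by omega
      rcases hr.out.eq_two_or_odd with h2 | h2
      · omega
      · rcases hp.out.eq_two_or_odd with h3 | h3 <;> omega
    · have := Nat.le_of_dvd (by omega) h
      omega

/-- The `p`-subgroups normalised by `R`. -/
def InvP (p : ℕ) (R X : Subgroup G) : Prop := IsPGroup p X ∧ R ≤ Subgroup.normalizer (X : Set G)

theorem InvP.conj {R X : Subgroup G} (h : InvP p R X) {n : G} (hn : n ∈ Subgroup.normalizer (R : Set G)) :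
    InvP p R (MulAut.conj n • X) := by
  refine ⟨h.1.map _, CoprimeAction.le_normalizer_of_conj_eq fun a ha => ?_⟩
  have ha' : n⁻¹ * a * n ∈ R := by
    have := (Subgroup.mem_normalizer_iff.1 ((Subgroup.normalizer _).inv_mem hn) a).1 ha
    simpa using this
  have hfix : MulAut.conj (n⁻¹ * a * n) • X = X := CoprimeAction.map_conj_eq (h.2 ha')
  calc MulAut.conj a • MulAut.conj n • X
      = MulAut.conj n • MulAut.conj (n⁻¹ * a * n) • X := by
        rw [← Signalizer.conj_smul_mul, ← Signalizer.conj_smul_mul]; congr 2; group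
    _ = MulAut.conj n • X := by rw [hfix]

theorem maximal_conj {R X : Subgroup G} (h : Maximal (InvP p R) X) {n : G}
    (hn : n ∈ Subgroup.normalizer (R : Set G)) : Maximal (InvP p R) (MulAut.conj n • X) := by
  refine ⟨h.prop.conj hn, fun Y hY hle => ?_⟩
  have h1 : X ≤ MulAut.conj n⁻¹ • Y := by
    have := Subgroup.pointwise_smul_le_pointwise_smul_iff (a := MulAut.conj n⁻¹) |>.2 hle
    rwa [← Signalizer.conj_smul_mul, inv_mul_cancel, map_one, one_smul] at this
  have h2 := h.le_of_ge (hY.conj ((Subgroup.normalizer _).inv_mem hn)) h1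
  have := Subgroup.pointwise_smul_le_pointwise_smul_iff (a := MulAut.conj n) |>.2 h2
  rwa [← Signalizer.conj_smul_mul, mul_inv_cancel, map_one, one_smul] at this

/-- Inside a proper subgroup two invariant `p`-subgroups can be combined. -/
theorem Ctx.exists_combine (c : Ctx p G) (hrp : r ≠ p) (R : Sylow r G) {H : Subgroup G} (hH : H ≠ ⊤)
    (hRH : (R : Subgroup G) ≤ H) {X₁ X₂ : Subgroup G} (h₁ : InvP p (R : Subgroup G) X₁)
    (h₂ : InvP p (R : Subgroup G) X₂) (hX₁ : X₁ ≤ H) (hX₂ : X₂ ≤ H) :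
    ∃ d ∈ Subgroup.centralizer ((R : Subgroup G) : Set G), d ∈ H ∧
      InvP p (R : Subgroup G) (X₁ ⊔ MulAut.conj d • X₂) := by
  obtain ⟨O, K, hO, hK, hc, hp', hel⟩ := c.good hH
  obtain ⟨o, ho, hpg⟩ := Good.exists_conj hc hp' hel
    (X₁ := X₁.subgroupOf H) (X₂ := X₂.subgroupOf H) h₁.1.comap_subtype h₂.1.comap_subtype
  have hoc : (o : G) ∈ Subgroup.centralizer ((R : Subgroup G) : Set G) :=
    Subgroup.mem_centralizer_iff.2 fun s hs => congrArg Subtype.val <|
      (c.hyp.subgroup H).comm (SolvTwoCore.coprime_sup hc (M := (R : Subgroup G).subgroupOf H)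
        (by rw [Nat.card_congr (Subgroup.subgroupOfEquivOfLe hRH).toEquiv]; exact c.sylow_coprime hrp R))
        (x := ⟨s, hRH hs⟩) (Subgroup.mem_sup_left hs) (Subgroup.mem_sup_right ho)
  have h₂' : InvP p (R : Subgroup G) (MulAut.conj (o : G) • X₂) :=
    h₂.conj (Subgroup.centralizer_le_normalizer _ hoc)
  refine ⟨o, hoc, o.2, (hpg.map H.subtype).to_le (sup_le ?_ ?_),
    CoprimeAction.le_normalizer_of_conj_eq fun a ha => by
      rw [Subgroup.smul_sup, CoprimeAction.map_conj_eq (h₁.2 ha), CoprimeAction.map_conj_eq (h₂'.2 ha)]⟩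
  · intro x hx
    exact ⟨⟨x, hX₁ hx⟩, Subgroup.mem_sup_left hx, rfl⟩
  · rintro _ ⟨x, hx, rfl⟩
    exact ⟨o * ⟨x, hX₂ hx⟩ * o⁻¹, Subgroup.mem_sup_right ⟨⟨x, hX₂ hx⟩, hx, rfl⟩, rfl⟩

/-- The transitivity theorem. -/
theorem Ctx.transitivity (c : Ctx p G) (hrp : r ≠ p) (R : Sylow r G) (hne : (R : Subgroup G) ≠ ⊥)
    {Q₁ Q₂ : Subgroup G} (h₁ : Maximal (InvP p (R : Subgroup G)) Q₁)
    (h₂ : Maximal (InvP p (R : Subgroup G)) Q₂) :
    ∃ d ∈ Subgroup.centralizer ((R : Subgroup G) : Set G), MulAut.conj d • Q₁ = Q₂ := by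
  induction hn : Nat.card G - Nat.card ↥(Q₁ ⊓ Q₂) using Nat.strong_induction_on generalizing Q₁ Q₂ with
  | _ n ih =>
  subst hn
  set D := Q₁ ⊓ Q₂ with hD
  rcases (inf_le_left : D ≤ Q₁).eq_or_lt with he | hlt₁
  · refine ⟨1, one_mem _, ?_⟩
    rw [map_one, one_smul]
    exact le_antisymm (inf_eq_left.1 he) (h₁.le_of_ge h₂.prop (inf_eq_left.1 he))
  rcases (inf_le_right : D ≤ Q₂).eq_or_lt with he | hlt₂
  · refine ⟨1, one_mem _, ?_⟩
    rw [map_one, one_smul]
    exact le_antisymm (h₂.le_of_ge h₁.prop (inf_eq_right.1 he)) (inf_eq_right.1 he)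
  haveI := c.sylow_comm hrp R
  obtain ⟨H, hH, hRH, hDH, hn₁, hn₂, hDfix⟩ : ∃ H : Subgroup G, H ≠ ⊤ ∧ (R : Subgroup G) ≤ H ∧ D ≤ H ∧
      ¬ Q₁ ⊓ H ≤ D ∧ ¬ Q₂ ⊓ H ≤ D ∧ ∀ d ∈ H, MulAut.conj d • D = D := by
    by_cases hD0 : D = ⊥
    · obtain ⟨E, hER, hE, hE3⟩ := c.exists_elementary hrp R hne
      obtain ⟨a, ha, ha1, hT₁, hT₂⟩ := Signalizer.exists_common_centralizer (R₁ := Q₁) (R₂ := Q₂)
        (D := D) hE hE3 (hER.trans h₁.prop.2) (hER.trans h₂.prop.2)
        (Signalizer.coprime_of_pgroups hrp (R.2.to_le hER) h₁.prop.1)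
        (Signalizer.coprime_of_pgroups hrp (R.2.to_le hER) h₂.prop.1) hlt₁.not_ge hlt₂.not_ge
      refine ⟨Subgroup.centralizer {a}, Signalizer.centralizer_singleton_ne_top c.simple c.nc ha1,
        fun s hs => Subgroup.mem_centralizer_singleton_iff.2
          (congrArg Subtype.val (mul_comm' (⟨s, hs⟩ : (R : Subgroup G)) ⟨a, hER ha⟩)), ?_, hT₁, hT₂,
        fun d _ => by rw [hD0]; exact Subgroup.smul_bot _⟩
      rw [hD0]; exact bot_le
    · exact ⟨Subgroup.normalizer (D : Set G), c.normalizer_ne_top (h₁.prop.1.to_le inf_le_left) hD0,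
        Signalizer.le_normalizer_inf h₁.prop.2 h₂.prop.2, Subgroup.le_normalizer,
        Signalizer.exists_mem_normalizer_of_lt h₁.prop.1 hlt₁,
        Signalizer.exists_mem_normalizer_of_lt h₂.prop.1 hlt₂, fun d hd => CoprimeAction.map_conj_eq hd⟩
  have hRn : (R : Subgroup G) ≤ Subgroup.normalizer (H : Set G) := hRH.trans Subgroup.le_normalizer
  have hX : ∀ {Q : Subgroup G}, InvP p (R : Subgroup G) Q → InvP p (R : Subgroup G) (Q ⊓ H) :=
    fun hQ => ⟨hQ.1.to_le inf_le_left, Signalizer.le_normalizer_inf hQ.2 hRn⟩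
  obtain ⟨d, hd, hdH, hZ⟩ :=
    c.exists_combine hrp R hH hRH (hX h₁.prop) (hX h₂.prop) inf_le_right inf_le_right
  obtain ⟨Q₃, hle₃, h₃⟩ : ∃ Q₃, (Q₁ ⊓ H) ⊔ MulAut.conj d • (Q₂ ⊓ H) ≤ Q₃ ∧
      Maximal (InvP p (R : Subgroup G)) Q₃ :=
    (Set.toFinite {X | InvP p (R : Subgroup G) X}).exists_le_maximal hZ
  have h₂' := maximal_conj h₂ (Subgroup.centralizer_le_normalizer _ hd)
  have hdec : ∀ X : Subgroup G, D ≤ X → ¬ X ≤ D → Nat.card D < Nat.card X := fun X h1 h2 =>
    lt_of_le_of_ne (Subgroup.card_le_of_le h1) fun e => h2 (Subgroup.eq_of_le_of_card_ge h1 e.ge).ge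
  have hbound : ∀ X : Subgroup G, Nat.card D < Nat.card X →
      Nat.card G - Nat.card X < Nat.card G - Nat.card D := fun X h1 => by
    have := Subgroup.card_le_card_group X
    omega
  obtain ⟨e₁, he₁, heq₁⟩ := ih _ (hbound _ ((hdec _ (le_inf inf_le_left hDH) hn₁).trans_le
    (Subgroup.card_le_of_le (le_inf inf_le_left (le_sup_left.trans hle₃))))) h₁ h₃ rfl
  have h3 : Nat.card D < Nat.card ↥(Q₃ ⊓ MulAut.conj d • Q₂) := by
    refine lt_of_lt_of_le ?_ (Subgroup.card_le_of_le (le_inf (le_sup_right.trans hle₃)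
      (Subgroup.pointwise_smul_le_pointwise_smul_iff.2 inf_le_left)))
    rw [CoprimeAction.card_conj_smul]
    exact hdec _ (le_inf inf_le_right hDH) hn₂
  obtain ⟨e₂, he₂, heq₂⟩ := ih _ (hbound _ h3) h₃ h₂' rfl
  refine ⟨d⁻¹ * e₂ * e₁, mul_mem (mul_mem (inv_mem hd) he₂) he₁, ?_⟩
  rw [Signalizer.conj_smul_mul, heq₁, Signalizer.conj_smul_mul, heq₂, ← Signalizer.conj_smul_mul,
    inv_mul_cancel, map_one, one_smul]

/-- `R` centralises every `p`-subgroup it normalises. -/
theorem Ctx.centralizes_invariant (c : Ctx p G) (hrp : r ≠ p) (R : Sylow r G) {X : Subgroup G}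
    (hX : InvP p (R : Subgroup G) X) : (R : Subgroup G) ≤ Subgroup.centralizer (X : Set G) := by
  classical
  obtain ⟨Q, hXQ, hQ⟩ : ∃ Q, X ≤ Q ∧ Maximal (InvP p (R : Subgroup G)) Q :=
    (Set.toFinite {X | InvP p (R : Subgroup G) X}).exists_le_maximal hX
  refine le_trans ?_ (Subgroup.centralizer_le hXQ)
  by_cases hQ0 : Q = ⊥
  · intro x _
    rw [hQ0, Subgroup.mem_centralizer_iff]
    intro y hy
    rw [Subgroup.mem_bot.1 hy, one_mul, mul_one]
  by_cases hR0 : (R : Subgroup G) = ⊥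
  · rw [hR0]; exact bot_le
  refine (c.sylow_le_commutator hrp R).trans ?_
  rw [Subgroup.commutator_le]
  intro s hs n hn
  obtain ⟨d, hd, hdeq⟩ := c.transitivity hrp R hR0 hQ (maximal_conj hQ hn)
  set H := Subgroup.normalizer (Q : Set G) with hH
  set m := d⁻¹ * n with hm
  have hmR : m ∈ Subgroup.normalizer ((R : Subgroup G) : Set G) :=
    Subgroup.mul_mem _ (Subgroup.inv_mem _ (Subgroup.centralizer_le_normalizer _ hd)) hn
  have hmH : m ∈ H := by
    rw [hH, Subgroup.mem_normalizer_iff_map_conj_eq]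
    show MulAut.conj m • Q = Q
    rw [hm, Signalizer.conj_smul_mul, ← hdeq, ← Signalizer.conj_smul_mul, inv_mul_cancel, map_one, one_smul]
  obtain ⟨a, b, hab, hcom, ⟨j, hj⟩, hb, haz, hbz⟩ := Transfer.exists_pPart_mul (p := p) m
  have hbR : b ∈ Subgroup.normalizer ((R : Subgroup G) : Set G) := Subgroup.zpowers_le.2 hmR hbz
  have hbc := c.hyp.centralizes (c.sylow_coprime hrp R) hbR hb
  have haR : a ∈ Subgroup.normalizer ((R : Subgroup G) : Set G) := Subgroup.zpowers_le.2 hmR haz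
  have haH : a ∈ H := Subgroup.zpowers_le.2 hmH haz
  have hs' : s⁻¹ ∈ (R : Subgroup G) := (R : Subgroup G).inv_mem hs
  have e1 : a * b * s⁻¹ * (a * b)⁻¹ = a * s⁻¹ * a⁻¹ := by
    calc a * b * s⁻¹ * (a * b)⁻¹ = a * (b * s⁻¹ * b⁻¹) * a⁻¹ := by group
      _ = a * s⁻¹ * a⁻¹ := by
        rw [← Subgroup.mem_centralizer_iff.1 hbc s⁻¹ hs', mul_inv_cancel_right]
  have hw : a * s⁻¹ * a⁻¹ ∈ (R : Subgroup G) := (Subgroup.mem_normalizer_iff.1 haR _).1 hs'
  have e2 : ⁅s, n⁆ = ⁅s, a⁆ := by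
    have hn' : n = d * (a * b) := by rw [← hab, hm, mul_inv_cancel_left]
    calc ⁅s, n⁆ = s * (d * (a * b * s⁻¹ * (a * b)⁻¹) * d⁻¹) := by
          rw [commutatorElement_def, hn']; group
      _ = ⁅s, a⁆ := by
          rw [e1, ← Subgroup.mem_centralizer_iff.1 hd _ hw, mul_inv_cancel_right, commutatorElement_def]
          group
  rw [e2]
  have hsa : ⁅s, a⁆ ∈ (R : Subgroup G) := by
    rw [commutatorElement_def, mul_assoc, mul_assoc, ← mul_assoc a]
    exact (R : Subgroup G).mul_mem hs hw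
  have hsH : s ∈ H := hQ.prop.2 hs
  have hHtop : H ≠ ⊤ := c.normalizer_ne_top hQ.prop.1 hQ0
  obtain ⟨O, K, hO, hK, hc, hp', hel⟩ := c.good hHtop
  have hK1 : ⁅(⟨s, hsH⟩ : H), ⟨a, haH⟩⁆ ∈ K := by
    have haK : (⟨a, haH⟩ : H) ∈ K := hel _ j (Subtype.ext (by
      rw [← hj]; simpa using pow_orderOf_eq_one a))
    rw [commutatorElement_def]
    exact K.mul_mem (hK.conj_mem _ haK _) (K.inv_mem haK)
  obtain ⟨k, hk⟩ := hp' _ hK1
  have hO1 : ⁅(⟨s, hsH⟩ : H), ⟨a, haH⟩⁆ ∈ O := mem_of_pow_mem (k := k) (by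
    rw [← Subgroup.orderOf_coe]
    exact orderOf_coprime_of_mem (c.sylow_coprime hrp R) hsa) hk
  refine Subgroup.mem_centralizer_iff.2 fun q hq => ?_
  haveI : (Q.subgroupOf H).Normal := Subgroup.normal_in_normalizer
  have hdis : Disjoint (Q.subgroupOf H) O := by
    rw [disjoint_iff]
    exact PCore.inf_eq_bot_of_isPGroup_of_coprime hQ.prop.1.comap_subtype hc
  have := Subgroup.commute_of_normal_of_disjoint _ _ inferInstance hO hdis
    ⟨q, Subgroup.le_normalizer hq⟩ _ hq hO1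
  exact congrArg Subtype.val this

/-- A proper subgroup containing a Sylow `r`-subgroup normalises it. -/
theorem Ctx.le_normalizer_sylow (c : Ctx p G) (hrp : r ≠ p) (R : Sylow r G) {H : Subgroup G}
    (hH : H ≠ ⊤) (hRH : (R : Subgroup G) ≤ H) :
    H ≤ Subgroup.normalizer ((R : Subgroup G) : Set G) := by
  classical
  haveI := c.solv H hH
  haveI : (Cfsg.pCore p ↥H).Normal := Cfsg.pCore_normal p _
  set P1 := Cfsg.pCore p ↥H with hP1
  set X := P1.map H.subtype with hXdef
  have hP1p : IsPGroup p P1 := PCore.isPGroup_pCore p _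
  have hRX : (R : Subgroup G) ≤ Subgroup.normalizer (X : Set G) := by
    refine hRH.trans (le_trans ?_ (Subgroup.le_normalizer_map _))
    rw [Subgroup.normalizer_eq_top (H := P1), ← MonoidHom.range_eq_map, Subgroup.range_subtype]
  have hRc := c.centralizes_invariant hrp R ⟨hP1p.map _, hRX⟩
  have hh := (c.hyp.subgroup H).quotient P1 (Or.inl hP1p)
  set π := QuotientGroup.mk' P1
  have h0 : Cfsg.pCore p (↥H ⧸ P1) = ⊥ := PCore.pCore_quotient
  set F := Cfsg.pPrimeCore p (↥H ⧸ P1) with hF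
  have hFc := (SolvTwoCore.pPrimeCore_spec (G := ↥H ⧸ P1) p).2
  intro n hn
  refine Subgroup.mem_normalizer_fintype fun s hs => ?_
  set Rb := (R.subtype hRH).mapSurjective (QuotientGroup.mk'_surjective P1) with hRb
  have hmemF : ∀ z : ↥H ⧸ P1, (∃ k, z ^ r ^ k = 1) → z ∈ F := fun z ⟨k, hk⟩ => by
    refine hh.mem_pPrimeCore h0 ?_
    exact Nat.Coprime.coprime_dvd_left (orderOf_dvd_of_pow_eq_one hk)
      (((Nat.coprime_primes hr.out hp.out).2 hrp).pow_left k)
  let S : Subgroup (↥H ⧸ P1) :=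
    { carrier := {z | ∃ k, z ^ r ^ k = 1}
      one_mem' := ⟨0, one_pow _⟩
      mul_mem' := fun {x y} hx hy => by
        have hc : Commute x y := hh.comm hFc (hmemF x hx) (hmemF y hy)
        obtain ⟨k, hk⟩ := hx
        obtain ⟨l, hl⟩ := hy
        exact ⟨k + l, by rw [hc.mul_pow, pow_add, pow_mul, hk, one_pow, mul_comm (r ^ k), pow_mul, hl,
          one_pow, one_mul]⟩
      inv_mem' := fun {x} ⟨k, hk⟩ => ⟨k, by rw [inv_pow, hk, inv_one]⟩ }
  have hSp : IsPGroup r S := fun z => by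
    obtain ⟨k, hk⟩ := z.2
    exact ⟨k, Subtype.ext (by simpa using hk)⟩
  have hSR : S = (Rb : Subgroup (↥H ⧸ P1)) := Rb.3 hSp fun z hz => by
    obtain ⟨k, hk⟩ := Rb.2 ⟨z, hz⟩
    exact ⟨k, by simpa using congrArg Subtype.val hk⟩
  obtain ⟨k, hk⟩ := R.2 ⟨s, hs⟩
  have hsk : s ^ r ^ k = 1 := by simpa using congrArg Subtype.val hk
  have hyk : (n * s * n⁻¹) ^ r ^ k = 1 := by rw [conj_pow, hsk, mul_one, mul_inv_cancel]
  set y : H := ⟨n * s * n⁻¹, H.mul_mem (H.mul_mem hn (hRH hs)) (H.inv_mem hn)⟩ with hy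
  have hyS : π y ∈ S := ⟨k, by
    rw [← map_pow, show y ^ r ^ k = 1 from Subtype.ext (by simpa [hy] using hyk), map_one]⟩
  rw [hSR, hRb, Sylow.coe_mapSurjective] at hyS
  obtain ⟨t, ht, hty⟩ := hyS
  have htR : (t : G) ∈ (R : Subgroup G) := ht
  have hx : t⁻¹ * y ∈ P1 := by
    rw [← QuotientGroup.eq_one_iff, QuotientGroup.mk_mul, QuotientGroup.mk_inv]
    exact inv_mul_eq_one.2 hty
  have hxX : (t : G)⁻¹ * (n * s * n⁻¹) ∈ X := ⟨_, hx, rfl⟩
  have hcomm : Commute (t : G)⁻¹ (n * s * n⁻¹) := by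
    have h1 := Subgroup.mem_centralizer_iff.1 (hRc htR) _ hxX
    calc (t : G)⁻¹ * (n * s * n⁻¹) = ((t : G)⁻¹ * (n * s * n⁻¹) * t) * (t : G)⁻¹ := by group
      _ = (t * ((t : G)⁻¹ * (n * s * n⁻¹))) * (t : G)⁻¹ := by rw [h1]
      _ = _ := by group
  obtain ⟨l, hl⟩ := R.2 ⟨t, htR⟩
  have htl : (t : G) ^ r ^ l = 1 := by simpa using congrArg Subtype.val hl
  have hx1 : (t : G)⁻¹ * (n * s * n⁻¹) = 1 := by
    refine Subgroup.mem_bot.1 ((PCore.inf_eq_bot_of_isPGroup_of_coprime (p := p) (hP1p.map H.subtype)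
      (Q := Subgroup.zpowers ((t : G)⁻¹ * (n * s * n⁻¹))) ?_) ▸
      Subgroup.mem_inf.2 ⟨hxX, Subgroup.mem_zpowers _⟩)
    refine card_zpowers_coprime (Nat.Coprime.coprime_dvd_left
      (orderOf_dvd_of_pow_eq_one (n := r ^ (l + k)) ?_)
      (((Nat.coprime_primes hr.out hp.out).2 hrp).pow_left _))
    rw [hcomm.mul_pow, inv_pow, pow_add, pow_mul, htl, one_pow, inv_one, one_mul,
      mul_comm (r ^ l), pow_mul, hyk, one_pow]
  rw [inv_mul_eq_one] at hx1
  exact hx1 ▸ htR

/-- Centralisers of nontrivial elements of `R` normalise `R`. -/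
theorem Ctx.centralizer_le (c : Ctx p G) (hrp : r ≠ p) (R : Sylow r G) {a : G}
    (ha : a ∈ (R : Subgroup G)) (ha1 : a ≠ 1) :
    Subgroup.centralizer ({a} : Set G) ≤ Subgroup.normalizer ((R : Subgroup G) : Set G) := by
  haveI := c.sylow_comm hrp R
  exact c.le_normalizer_sylow hrp R (Signalizer.centralizer_singleton_ne_top c.simple c.nc ha1)
    fun s hs => Subgroup.mem_centralizer_singleton_iff.2
      (congrArg Subtype.val (mul_comm' (⟨s, hs⟩ : (R : Subgroup G)) ⟨a, ha⟩))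

end Sylow

/-! ### The contradiction -/

theorem modEq_one_of_forall {m : ℕ} (hm : m ≠ 0)
    (h : ∀ q, q.Prime → q ∣ m → q ^ m.factorization q ≡ 1 [MOD p]) : m ≡ 1 [MOD p] := by
  rw [← ZMod.natCast_eq_natCast_iff]
  conv_lhs => rw [← Nat.prod_factorization_pow_eq_self hm]
  rw [Finsupp.prod, Nat.cast_prod, Nat.cast_one]
  refine Finset.prod_eq_one fun q hq => ?_
  rw [Nat.support_factorization, Nat.mem_primeFactors] at hq
  have := (ZMod.natCast_eq_natCast_iff _ _ _).2 (h q hq.1 hq.2.1)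
  rwa [Nat.cast_one] at this

theorem Ctx.index_modEq_one (c : Ctx p G) (P : Sylow p G) : (P : Subgroup G).index ≡ 1 [MOD p] := by
  refine modEq_one_of_forall Subgroup.index_ne_zero_of_finite fun q hq hd => ?_
  haveI := Fact.mk hq
  have hqp : q ≠ p := fun e => P.not_dvd_index (e ▸ hd)
  obtain ⟨R⟩ : Nonempty (Sylow q G) := inferInstance
  have h := c.card_modEq_one hqp R (X := (R : Subgroup G)) le_rfl le_rfl
  rw [R.card_eq_multiplicity] at h
  convert h using 2
  rw [← (P : Subgroup G).card_mul_index, Nat.factorization_mul Nat.card_pos.ne'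
    Subgroup.index_ne_zero_of_finite, P.card_eq_multiplicity, Finsupp.add_apply,
    Nat.Prime.factorization_pow hp.out, Finsupp.single_eq_of_ne hqp, zero_add]

/-- An abelian group of exponent `e` that is not cyclic has an elementary subgroup of order at least `q²`. -/
theorem exists_elem_sq {F : Subgroup G} (hF : ∀ x ∈ F, ∀ y ∈ F, x * y = y * x) (hc : ¬ IsCyclic F) :
    ∃ (q : ℕ) (E : Subgroup G), q.Prime ∧ E ≤ F ∧ Cfsg.IsElementaryAbelian q E ∧ q ^ 2 ≤ Nat.card E := by
  classical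
  haveI : IsMulCommutative F := ⟨⟨fun a b => Subtype.ext (hF _ a.2 _ b.2)⟩⟩
  open scoped IsMulCommutative in
  obtain ⟨x, hx⟩ := Monoid.exists_orderOf_eq_exponent (G := ↥F) Monoid.ExponentExists.of_finite
  have hXne : Subgroup.zpowers x ≠ ⊤ := fun h => hc ⟨⟨x, fun y => h.ge (Subgroup.mem_top y)⟩⟩
  obtain ⟨y, -, hy⟩ := SetLike.exists_of_lt (lt_top_iff_ne_top.2 hXne)
  haveI : (Subgroup.zpowers x).Normal := Subgroup.normal_of_isMulCommutative _
  set yb : ↥F ⧸ Subgroup.zpowers x := (y : ↥F ⧸ Subgroup.zpowers x) with hybdef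
  have hy1 : orderOf yb ≠ 1 := fun h => hy ((QuotientGroup.eq_one_iff y).1 (orderOf_eq_one_iff.1 h))
  obtain ⟨q, hq, hqd⟩ := Nat.exists_prime_and_dvd hy1
  haveI := Fact.mk hq
  have hye : orderOf yb ∣ orderOf x := by
    refine (orderOf_map_dvd (QuotientGroup.mk' _) y).trans ?_
    rw [hx]; exact Monoid.order_dvd_exponent y
  set w := y ^ (orderOf yb / q) with hw
  have hwne : w ∉ Subgroup.zpowers x := by
    rw [← QuotientGroup.eq_one_iff, hw, QuotientGroup.mk_pow, ← orderOf_dvd_iff_pow_eq_one]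
    intro h
    have h1 := Nat.le_of_dvd (Nat.div_pos (Nat.le_of_dvd (orderOf_pos _) hqd) hq.pos) h
    exact absurd h1 (not_le.2 (Nat.div_lt_self (orderOf_pos _) hq.one_lt))
  have hwq : w ^ q ∈ Subgroup.zpowers x := by
    rw [← QuotientGroup.eq_one_iff, hw, QuotientGroup.mk_pow, QuotientGroup.mk_pow, ← pow_mul,
      Nat.div_mul_cancel hqd, ← hybdef, pow_orderOf_eq_one]
  obtain ⟨i, hi⟩ := Subgroup.mem_zpowers_iff.1 hwq
  obtain ⟨e, he⟩ := hqd.trans hye
  have h0 : (q : ℤ) ∣ i := by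
    have h1 : x ^ (i * e) = 1 := by
      rw [zpow_mul, hi, zpow_natCast, ← pow_mul, ← he]
      exact orderOf_dvd_iff_pow_eq_one.1 (hx ▸ Monoid.order_dvd_exponent w)
    rw [← orderOf_dvd_iff_zpow_eq_one, he, Nat.cast_mul] at h1
    refine Int.dvd_of_mul_dvd_mul_right ?_ h1
    intro h
    rw [Int.natCast_eq_zero] at h
    rw [h, mul_zero] at he
    exact (orderOf_pos x).ne' he
  obtain ⟨j, hj⟩ := h0
  set w' := w * (x ^ j)⁻¹ with hw'
  have hw'q : w' ^ q = 1 := by
    have hcm : Commute w (x ^ j)⁻¹ := Subtype.ext (hF _ w.2 _ ((x ^ j)⁻¹ : F).2)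
    rw [hw', hcm.mul_pow, inv_pow, ← hi, hj, ← zpow_natCast (x ^ j), ← zpow_mul, mul_comm j,
      mul_inv_cancel]
  have hw'ne : w' ∉ Subgroup.zpowers x := fun h => hwne (by
    have := Subgroup.mul_mem _ h (Subgroup.zpow_mem _ (Subgroup.mem_zpowers x) j)
    rwa [hw', inv_mul_cancel_right] at this)
  let E : Subgroup G :=
    { carrier := {z | z ∈ F ∧ z ^ q = 1}
      one_mem' := ⟨F.one_mem, one_pow q⟩
      mul_mem' := fun {a b} ha hb => ⟨F.mul_mem ha.1 hb.1, by
        rw [(show Commute a b from hF a ha.1 b hb.1).mul_pow, ha.2, hb.2, one_mul]⟩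
      inv_mem' := fun {a} ha => ⟨F.inv_mem ha.1, by rw [inv_pow, ha.2, inv_one]⟩ }
  refine ⟨q, E, hq, fun z hz => hz.1,
    ⟨⟨⟨fun a b => Subtype.ext (hF _ a.2.1 _ b.2.1)⟩⟩, fun z hz => hz.2⟩, ?_⟩
  set z : F := x ^ e with hz
  have hzo : orderOf z = q := by
    have he0 : 0 < e := Nat.pos_of_ne_zero fun h => by
      rw [h, mul_zero] at he; exact (orderOf_pos x).ne' he
    rw [hz, orderOf_pow' x he0.ne', he, Nat.gcd_mul_left_left, Nat.mul_div_cancel _ he0]
  have hzE : (z : G) ∈ E := ⟨z.2, by rw [← Subgroup.coe_pow, ← hzo, pow_orderOf_eq_one, Subgroup.coe_one]⟩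
  have hwE : (w' : G) ∈ E := ⟨w'.2, by rw [← Subgroup.coe_pow, hw'q, Subgroup.coe_one]⟩
  have hEp : IsPGroup q E := fun a => ⟨1, Subtype.ext (by simpa using a.2.2)⟩
  obtain ⟨m, hm⟩ := IsPGroup.iff_card.1 hEp
  rw [hm]
  refine Nat.pow_le_pow_right hq.pos ?_
  by_contra hlt
  have hle : Subgroup.zpowers (z : G) ≤ E := Subgroup.zpowers_le.2 hzE
  have hcard : Nat.card (Subgroup.zpowers (z : G)) = q := by
    rw [Nat.card_zpowers, Subgroup.orderOf_coe, hzo]
  have heq : Subgroup.zpowers (z : G) = E := Subgroup.eq_of_le_of_card_ge hle (by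
    rw [hcard, hm]; exact (Nat.pow_le_pow_right hq.pos (by omega : m ≤ 1)).trans_eq (pow_one q))
  obtain ⟨l, hl⟩ := Subgroup.mem_zpowers_iff.1 (heq.ge hwE)
  refine hw'ne ?_
  rw [show w' = z ^ l from Subtype.ext (by rw [Subgroup.coe_zpow, hl])]
  exact Subgroup.zpow_mem _ (Subgroup.pow_mem _ (Subgroup.mem_zpowers x) e) l

theorem Ctx.contradiction (c : Ctx p G) : False := by
  classical
  have h5 := c.five
  obtain ⟨P⟩ : Nonempty (Sylow p G) := inferInstance
  have hP : (P : Subgroup G) ≠ ⊥ := fun h => c.nc <| by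
    have hc : (Nat.card (⊤ : Subgroup G)).Coprime p := by
      refine (hp.out.coprime_iff_not_dvd.2 fun hd => ?_).symm
      rw [Subgroup.card_top] at hd
      exact P.ne_bot_of_dvd_card hd h
    exact ⟨⟨fun a b => c.hyp.comm hc (Subgroup.mem_top a) (Subgroup.mem_top b)⟩⟩
  set N := Subgroup.normalizer ((P : Subgroup G) : Set G) with hN
  set PN : Sylow p N := P.subtype Subgroup.le_normalizer
  haveI hPNn : (PN : Subgroup N).Normal := Subgroup.normal_in_normalizer
  obtain ⟨A, hA⟩ := Subgroup.exists_right_complement'_of_coprime PN.card_coprime_index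
  set F := A.map N.subtype with hFdef
  have hFN : F ≤ N := Subgroup.map_subtype_le _
  have hFidx : Nat.card F = (P : Subgroup G).relIndex N := by
    rw [hFdef, Subgroup.card_map_of_injective N.subtype_injective, ← hA.symm.index_eq_card]
    rfl
  have hFc : (Nat.card F).Coprime p := by
    rw [hFdef, Subgroup.card_map_of_injective N.subtype_injective, ← hA.symm.index_eq_card]
    exact (hp.out.coprime_iff_not_dvd.2 PN.not_dvd_index).symm
  have hmod : Nat.card F ≡ 1 [MOD p] := by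
    have h1 := c.index_modEq_one P
    have h2 := card_sylow_modEq_one p G
    rw [P.card_eq_index_normalizer] at h2
    rw [← Subgroup.relIndex_mul_index (Subgroup.le_normalizer : (P : Subgroup G) ≤ N), ← hFidx] at h1
    simpa using ((Nat.ModEq.refl (Nat.card F)).mul h2).symm.trans h1
  have hprod : ∀ n ∈ N, ∃ y ∈ (P : Subgroup G), ∃ f ∈ F, y * f = n := fun n hn => by
    obtain ⟨⟨⟨y, hy⟩, ⟨a, ha⟩⟩, hya⟩ := hA.2 (⟨n, hn⟩ : N)
    exact ⟨y, hy, a, ⟨a, ha, rfl⟩, congrArg Subtype.val hya⟩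
  -- `F` does not centralise `P`
  have hnc : ¬ (P : Subgroup G) ≤ Subgroup.centralizer (F : Set G) := by
    intro hcen
    have hctl : ∀ x ∈ (P : Subgroup G), ∀ g : G, g * x * g⁻¹ ∈ (P : Subgroup G) →
        ∃ z ∈ (P : Subgroup G), z * x * z⁻¹ = g * x * g⁻¹ := by
      intro x hx g hg
      obtain ⟨-, hcon⟩ := QdFree.controlsStrongFusionOf_W_of_qdFree (el := false) (by omega) P
        (c.hyp.not_involves_qd (by omega)) (D := (P : Subgroup G)) ⟨le_rfl, fun _ _ _ h => h⟩ {x}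
        (Set.singleton_subset_iff.2 hx)
      obtain ⟨l, hl, he⟩ := hcon g (by rintro _ ⟨a, rfl, rfl⟩; exact hg)
      set L := Subgroup.normalizer (ZJ.W p false (P : Subgroup G) : Set G)
      have hPL : (P : Subgroup G) ≤ L := Subgroup.le_normalizer.trans W_map_conj
      obtain ⟨O, K, hO, hK, hc, hp', hel⟩ := c.good_ZJ P hP
      obtain ⟨o, ho, hpg⟩ := Good.exists_conj hc hp' hel (X₁ := (P : Subgroup G).subgroupOf L)
        (X₂ := (MulAut.conj l • (P : Subgroup G)).subgroupOf L) P.2.comap_subtype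
        (IsPGroup.comap_subtype (P.2.map _))
      have hsub : ((P : Subgroup G).subgroupOf L) ⊔ MulAut.conj o •
          (MulAut.conj l • (P : Subgroup G)).subgroupOf L = (P : Subgroup G).subgroupOf L :=
        (P.subtype hPL).3 hpg le_sup_left
      have hnN : (o : G) * l ∈ N := by
        refine Subgroup.mem_normalizer_fintype fun y hy => ?_
        have hyl : l * y * l⁻¹ ∈ L := L.mul_mem (L.mul_mem hl (hPL hy)) (L.inv_mem hl)
        have h1 : MulAut.conj o • (⟨l * y * l⁻¹, hyl⟩ : L) ∈ (P : Subgroup G).subgroupOf L :=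
          hsub.le (Subgroup.mem_sup_right (Subgroup.smul_mem_pointwise_smul _ _ _
            (show l * y * l⁻¹ ∈ MulAut.conj l • (P : Subgroup G) from ⟨y, hy, rfl⟩)))
        have h2 : (o : G) * (l * y * l⁻¹) * (o : G)⁻¹ ∈ (P : Subgroup G) := h1
        show (o : G) * l * y * ((o : G) * l)⁻¹ ∈ (P : Subgroup G)
        rwa [show (o : G) * l * y * ((o : G) * l)⁻¹ = (o : G) * (l * y * l⁻¹) * (o : G)⁻¹ by group]
      obtain ⟨y, hy, f, hf, hyf⟩ := hprod _ hnN
      refine ⟨y, hy, ?_⟩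
      have hgl : g * x * g⁻¹ = l * x * l⁻¹ := he x rfl
      have hfx : f * x * f⁻¹ = x := by
        rw [Subgroup.mem_centralizer_iff.1 (hcen hx) f hf, mul_inv_cancel_right]
      have e : y * x * y⁻¹ = (o : G) * (l * x * l⁻¹) * (o : G)⁻¹ := by
        calc y * x * y⁻¹ = y * (f * x * f⁻¹) * y⁻¹ := by rw [hfx]
          _ = (y * f) * x * (y * f)⁻¹ := by group
          _ = _ := by rw [hyf]; group
      set u : L := ⟨l * x * l⁻¹, L.mul_mem (L.mul_mem hl (hPL hx)) (L.inv_mem hl)⟩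
      set v : L := ⟨y * x * y⁻¹, hPL (Subgroup.mul_mem _ (Subgroup.mul_mem _ hy hx) (Subgroup.inv_mem _ hy))⟩
      have hvu : v = o * u * o⁻¹ := Subtype.ext e
      have hmem : v * u⁻¹ ∈ (P : Subgroup G).subgroupOf L ⊓ O := by
        refine ⟨Subgroup.mul_mem _ (Subgroup.mul_mem _ (Subgroup.mul_mem _ hy hx) (Subgroup.inv_mem _ hy))
          (Subgroup.inv_mem _ (show (l * x * l⁻¹) ∈ (P : Subgroup G) from hgl ▸ hg)), ?_⟩
        rw [hvu, show o * u * o⁻¹ * u⁻¹ = o * (u * o⁻¹ * u⁻¹) by group]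
        exact O.mul_mem ho (hO.conj_mem _ (O.inv_mem ho) u)
      have hbot : (P : Subgroup G).subgroupOf L ⊓ O = ⊥ :=
        PCore.inf_eq_bot_of_isPGroup_of_coprime P.2.comap_subtype hc
      rw [hbot, Subgroup.mem_bot, mul_inv_eq_one] at hmem
      exact (congrArg Subtype.val hmem).trans hgl.symm
    obtain ⟨Q, M, hMn, hcompl⟩ := Transfer.hasNormalPComplement_of_control P hctl
    rcases c.simple.eq_bot_or_eq_top_of_normal M hMn with rfl | rfl
    · exact c.ne_top_of_isPGroup Q.2 (Subgroup.isComplement'_bot_left.1 hcompl)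
    · have hQ : (Q : Subgroup G) = ⊥ := Subgroup.isComplement'_top_left.1 hcompl
      refine hP (Subgroup.card_eq_one.1 ?_)
      rw [P.card_eq_multiplicity, ← Q.card_eq_multiplicity, hQ, Subgroup.card_bot]
  -- centralisers in `P` of elements of `F`
  have hFcomm : ∀ x ∈ F, ∀ y ∈ F, x * y = y * x := fun x hx y hy => c.hyp.comm hFc hx hy
  have hkey : ∀ f ∈ F, f ≠ 1 →
      (P : Subgroup G) ⊓ Subgroup.centralizer {f} ≤ Subgroup.centralizer (F : Set G) := by
    rintro f hf hf1 y ⟨hyP, hyf⟩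
    have hFf : F ≤ Subgroup.centralizer {f} := fun a ha =>
      Subgroup.mem_centralizer_singleton_iff.2 (hFcomm a ha f hf)
    have hall : ∀ q : ℕ, q.Prime → ∀ a ∈ F, (∃ k, a ^ q ^ k = 1) → a * y = y * a := by
      intro q hq a ha ⟨k, hak⟩
      rcases eq_or_ne a 1 with rfl | ha1
      · rw [one_mul, mul_one]
      haveI := Fact.mk hq
      obtain ⟨R, hR⟩ := (IsPGroup.exists_le_sylow (p := q) (P := Subgroup.zpowers a) fun z => by
        refine ⟨k, Subtype.ext ?_⟩
        obtain ⟨i, hi⟩ := Subgroup.mem_zpowers_iff.1 z.2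
        rw [Subgroup.coe_pow, ← hi, Subgroup.coe_one, ← zpow_natCast, ← zpow_mul, mul_comm i,
          zpow_mul, zpow_natCast, hak, one_zpow])
      have haR : a ∈ (R : Subgroup G) := hR (Subgroup.mem_zpowers a)
      have hqp : q ≠ p := fun e => by
        subst e
        exact ha1 (Subgroup.mem_bot.1 (mem_of_pow_mem (orderOf_coprime_of_mem hFc ha) (k := k)
          (by rw [hak]; exact Subgroup.one_mem _)))
      have hfN : f ∈ Subgroup.normalizer ((R : Subgroup G) : Set G) :=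
        c.centralizer_le hqp R haR ha1 (Subgroup.mem_centralizer_singleton_iff.2 (hFcomm f hf a ha))
      have hfR := c.hyp.centralizes (c.sylow_coprime hqp R) hfN (orderOf_coprime_of_mem hFc hf)
      have hRf : (R : Subgroup G) ≤ Subgroup.centralizer {f} := fun s hs =>
        Subgroup.mem_centralizer_singleton_iff.2 (Subgroup.mem_centralizer_iff.1 hfR s hs)
      have hyR := c.le_normalizer_sylow hqp R
        (Signalizer.centralizer_singleton_ne_top c.simple c.nc hf1) hRf hyf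
      have h1 : y * a * y⁻¹ * a⁻¹ ∈ (R : Subgroup G) ⊓ (P : Subgroup G) := by
        refine ⟨Subgroup.mul_mem _ ((Subgroup.mem_normalizer_iff.1 hyR a).1 haR) (Subgroup.inv_mem _ haR), ?_⟩
        rw [show y * a * y⁻¹ * a⁻¹ = y * (a * y⁻¹ * a⁻¹) by group]
        exact Subgroup.mul_mem _ hyP ((Subgroup.mem_normalizer_iff.1 (hFN ha) _).1 (Subgroup.inv_mem _ hyP))
      rw [inf_comm, PCore.inf_eq_bot_of_isPGroup_of_coprime P.2 (c.sylow_coprime hqp R),
        Subgroup.mem_bot] at h1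
      calc a * y = 1 * (a * y) := (one_mul _).symm
        _ = y * a * y⁻¹ * a⁻¹ * (a * y) := by rw [h1]
        _ = y * a := by group
    -- the centraliser of `y` in `F` has full Sylow subgroups
    set Fy := F ⊓ Subgroup.centralizer {y}
    have hdvd : Nat.card F ∣ Nat.card Fy := by
      rw [← Nat.ordProj_dvd_ordProj_iff_dvd Nat.card_pos.ne' Nat.card_pos.ne'] <;> skip
      intro q
      by_cases hq : q.Prime
      · haveI := Fact.mk hq
        obtain ⟨T⟩ : Nonempty (Sylow q F) := inferInstance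
        rw [← T.card_eq_multiplicity,
          ← Subgroup.card_map_of_injective (K := (T : Subgroup F)) F.subtype_injective]
        obtain ⟨j, hj⟩ := IsPGroup.iff_card.1 (T.2.map F.subtype)
        rw [hj]
        refine pow_dvd_pow q ((hq.pow_dvd_iff_le_factorization Nat.card_pos.ne').1 (hj ▸
          Subgroup.card_dvd_of_le ?_))
        rintro _ ⟨t, ht, rfl⟩
        obtain ⟨k, hk⟩ := T.2 ⟨t, ht⟩
        exact ⟨t.2, Subgroup.mem_centralizer_singleton_iff.2
          (hall q hq t t.2 ⟨k, by simpa using congrArg (fun z => ((z.1 : F) : G)) hk⟩)⟩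
      · simp [Nat.factorization_eq_zero_of_not_prime _ hq]
    have heq : Fy = F := Subgroup.eq_of_le_of_card_ge inf_le_left (Nat.le_of_dvd Nat.card_pos hdvd)
    exact Subgroup.mem_centralizer_iff.2 fun a ha =>
      Subgroup.mem_centralizer_singleton_iff.1 (heq.ge ha).2
  have hcyc : IsCyclic F := by
    by_contra hcy
    obtain ⟨q, E, hq, hEF, hE, hE2⟩ := exists_elem_sq hFcomm hcy
    haveI := Fact.mk hq
    haveI := hE.1
    have hE0 : E ≠ ⊥ := fun h => by
      rw [h, Subgroup.card_bot] at hE2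
      exact absurd hE2 (not_le.2 (one_lt_pow₀ hq.one_lt (by norm_num)))
    refine hnc (CoprimeAction.le_of_hyperplane_centralizers_le hE0 hE.2 (hEF.trans hFN) ?_ ?_)
    · obtain ⟨k, hk⟩ := IsPGroup.iff_card.1 P.2
      rw [hk]
      exact (Nat.Coprime.coprime_dvd_left (Subgroup.card_dvd_of_le hEF) hFc).pow_right k
    · intro B hB hidx
      obtain ⟨b, hb, hb1⟩ := (Subgroup.bot_or_exists_ne_one B).resolve_left fun h => by
        rw [h, Subgroup.relIndex_bot_left] at hidx
        rw [hidx] at hE2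
        exact absurd hE2 (not_le.2 (lt_self_pow₀ hq.one_lt (by norm_num)))
      exact le_trans (inf_le_inf_left _ (Subgroup.centralizer_le (Set.singleton_subset_iff.2 hb)))
        (hkey b (hEF (hB hb)) hb1)
  obtain ⟨g, hg⟩ := hcyc.exists_generator
  have hord := orderOf_eq_card_of_forall_mem_zpowers hg
  have hd : Nat.card F ∣ p - 1 := by
    rw [← hord, orderOf_dvd_iff_pow_eq_one]
    exact Subtype.ext (by simpa using (c.hyp F hFc).2 g g.2)
  have h1 : Nat.card F = 1 := by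
    have h2 := Nat.le_of_dvd (by omega) hd
    have h3 := hmod
    rw [Nat.ModEq, Nat.mod_eq_of_lt (by omega), Nat.mod_eq_of_lt (by omega)] at h3
    exact h3
  refine hnc fun x _ => ?_
  rw [Subgroup.mem_centralizer_iff]
  intro f hf
  rw [Subgroup.card_eq_one.1 h1] at hf
  rw [Subgroup.mem_bot.1 hf, one_mul, mul_one]

end CfsgLib.AbelianHall
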