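import Mathlib
import Cfsg.Agent.AbelianHall.Simple
import Cfsg.Agent.CharBasics.Burnside
import Cfsg.Agent.Hall.InvariantHall

/-!
A group all of whose `p'`-subgroups are abelian of exponent dividing `p - 1` is solvable.
-/

set_option autoImplicit false
set_option linter.style.haveILetI false

namespace CfsgLib.AbelianHall

universe u

variable {p : ℕ} [hp : Fact p.Prime]

theorem isSolvable_of_hyp_five (h5 : 5 ≤ p) : ∀ (n : ℕ) (G : Type u) [Group G] [Finite G],
    Nat.card G = n → Hyp p G → Group.IsSolvable G := by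
  intro n
  induction n using Nat.strong_induction_on with
  | _ n ih =>
  intro G _ _ hn h
  by_contra hns
  have hsolv : ∀ H : Subgroup G, H ≠ ⊤ → Group.IsSolvable H := fun H hH =>
    ih _ (hn ▸ lt_of_le_of_ne H.card_le_card_group fun e => hH (Subgroup.eq_top_of_card_eq H e))
      H rfl (h.subgroup H)
  have hnc : ¬ IsMulCommutative G := fun hc => hns (Group.isSolvable_of_comm fun a b => hc.is_comm.comm a b)
  haveI : Nontrivial G := by
    by_contra hnt
    rw [not_nontrivial_iff_subsingleton] at hnt
    exact hns inferInstance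
  have hsimple : IsSimpleGroup G := by
    refine ⟨fun N hN => ?_⟩
    by_contra hcon
    push Not at hcon
    haveI := hN
    haveI := hsolv N hcon.2
    obtain ⟨M, q, hq, hM1, -, hMq, hMn⟩ := Hall.exists_invariant_normal_pgroup (⊤ : Subgroup G) N
      (fun g _ => (Subgroup.normalizer_eq_top (H := N)).ge (Subgroup.mem_top g)) hcon.1
    haveI := Fact.mk hq
    haveI : M.Normal := Subgroup.normalizer_eq_top_iff.1 (eq_top_iff.2 (le_sup_left.trans hMn))
    haveI : Group.IsNilpotent M := hMq.isNilpotent
    haveI : Group.IsSolvable M := inferInstance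
    have hquot : Hyp p (G ⧸ M) := h.quotient M <| by
      by_cases hqp : q = p
      · exact Or.inl (hqp ▸ hMq)
      · exact Or.inr (coprime_of_isPGroup hqp hMq)
    haveI : Nontrivial M := (Subgroup.nontrivial_iff_ne_bot M).2 hM1
    haveI : Group.IsSolvable (G ⧸ M) := ih _ (by
      rw [← hn, M.card_eq_card_quotient_mul_card_subgroup]
      exact lt_mul_of_one_lt_right Nat.card_pos Finite.one_lt_card) (G ⧸ M) rfl hquot
    exact hns (Group.isSolvable_of_ker_le_range M.subtype (QuotientGroup.mk' M)
      (by rw [QuotientGroup.ker_mk', Subgroup.range_subtype]))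
  exact Ctx.contradiction (p := p) ⟨h, h5, hsimple, hnc, hsolv⟩

theorem isSolvable_of_hyp {G : Type u} [Group G] [Finite G] (h : Hyp p G) : Group.IsSolvable G := by
  rcases le_or_gt 5 p with h5 | h5
  · exact isSolvable_of_hyp_five h5 _ G rfl h
  refine CharBasics.isSolvable_two_primes 2 3 fun r hr hrd => ?_
  haveI := Fact.mk hr
  have h2 := hp.out.two_le
  have hp23 : p = 2 ∨ p = 3 := by
    have h4 : p ≠ 4 := fun e => by rw [e] at hp; exact absurd hp.out (by decide)
    omega
  by_cases hrp : r = p
  · omega
  obtain ⟨R⟩ : Nonempty (Sylow r G) := inferInstance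
  obtain ⟨x, hx⟩ := exists_prime_orderOf_dvd_card' (G := G) r hrd
  have hc : (Nat.card (Subgroup.zpowers x)).Coprime p :=
    card_zpowers_coprime (hx ▸ (Nat.coprime_primes hr hp.out).2 hrp)
  have h1 := (h _ hc).2 x (Subgroup.mem_zpowers x)
  rw [← orderOf_dvd_iff_pow_eq_one, hx] at h1
  have := Nat.le_of_dvd (by omega) h1
  have := hr.two_le
  omega

end CfsgLib.AbelianHall
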